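import Cfsg.Agent.Lib.G23.Main
import Cfsg.Agent.Lib.SLn.Basic
import Cfsg.Agent.Lib.Classical.FieldTransfer

/-! # The prime graph of PSL₂(13) -/

set_option autoImplicit false

namespace Cfsg.Agent.Lib.G23.PSL213

open Cfsg.Agent.Lib.SLn.Basic Cfsg.Agent.Lib.G23.Main Matrix

instance : Fact (Nat.Prime 13) := ⟨by norm_num⟩

/-- The Chebyshev polynomials. -/
def u (t : ZMod 13) : ℕ → ZMod 13
  | 0 => 0
  | 1 => 1
  | n + 2 => t * u t (n + 1) - u t n

abbrev SL2 := Matrix.SpecialLinearGroup (Fin 2) (ZMod 13)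

theorem sq_eq (A : SL2) : (A : Matrix (Fin 2) (Fin 2) (ZMod 13)) * A =
    (A : Matrix (Fin 2) (Fin 2) (ZMod 13)).trace • (A : Matrix (Fin 2) (Fin 2) (ZMod 13)) - 1 := by
  have hd : (A : Matrix (Fin 2) (Fin 2) (ZMod 13)).det = 1 := A.2
  rw [Matrix.det_fin_two] at hd
  ext i j
  fin_cases i <;> fin_cases j <;>
    simp [Matrix.mul_apply, Fin.sum_univ_two, Matrix.trace_fin_two, Matrix.sub_apply, Matrix.smul_apply]
  · linear_combination -hd
  · ring
  · ring
  · linear_combination -hd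

theorem pow_eq (A : SL2) (n : ℕ) : ((A ^ (n + 1) : SL2) : Matrix (Fin 2) (Fin 2) (ZMod 13)) =
    u (A : Matrix (Fin 2) (Fin 2) (ZMod 13)).trace (n + 1) • (A : Matrix (Fin 2) (Fin 2) (ZMod 13)) -
      u (A : Matrix (Fin 2) (Fin 2) (ZMod 13)).trace n • 1 := by
  set M : Matrix (Fin 2) (Fin 2) (ZMod 13) := (A : Matrix (Fin 2) (Fin 2) (ZMod 13)) with hM
  set t := M.trace with ht
  have h2 : M * M = t • M - 1 := sq_eq A
  induction n with
  | zero => simp [u, hM]
  | succ n ih =>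
    have h3 : ((A ^ (n + 1 + 1) : SL2) : Matrix (Fin 2) (Fin 2) (ZMod 13)) =
        ((A ^ (n + 1) : SL2) : Matrix (Fin 2) (Fin 2) (ZMod 13)) * M := by
      rw [pow_succ]
      rfl
    rw [h3, ih, sub_mul, smul_mul_assoc, smul_mul_assoc, h2, one_mul, smul_sub, smul_smul]
    show _ = u t (n + 2) • M - u t (n + 1) • 1
    have h4 : u t (n + 2) = t * u t (n + 1) - u t n := rfl
    rw [h4, sub_smul, mul_comm t]
    abel

/-- If the Chebyshev polynomial vanishes the power is scalar. -/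
theorem toPSL_pow_of_u (A : SL2) {n : ℕ}
    (h : u (A : Matrix (Fin 2) (Fin 2) (ZMod 13)).trace (n + 1) = 0) :
    (toPSL A) ^ (n + 1) = 1 := by
  rw [← map_pow, toPSL_eq_one_iff]
  refine ⟨- u (A : Matrix (Fin 2) (Fin 2) (ZMod 13)).trace n, ?_⟩
  rw [pow_eq, h, zero_smul, zero_sub]
  ext i j
  fin_cases i <;> fin_cases j <;> simp [Matrix.scalar_apply, Matrix.diagonal]

theorem u_cases : ∀ t : ZMod 13, u t 6 = 0 ∨ u t 7 = 0 ∨ u t 13 = 0 := by decide

/-- The orders of the elements of `PSL₂(13)`. -/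
theorem order_cases (y : Matrix.ProjectiveSpecialLinearGroup (Fin 2) (ZMod 13)) :
    orderOf y ∣ 6 ∨ orderOf y ∣ 7 ∨ orderOf y ∣ 13 := by
  obtain ⟨A, rfl⟩ := toPSL_surjective y
  rcases u_cases (A : Matrix (Fin 2) (Fin 2) (ZMod 13)).trace with h | h | h
  · exact Or.inl (orderOf_dvd_of_pow_eq_one (toPSL_pow_of_u A h))
  · exact Or.inr (Or.inl (orderOf_dvd_of_pow_eq_one (toPSL_pow_of_u A h)))
  · exact Or.inr (Or.inr (orderOf_dvd_of_pow_eq_one (toPSL_pow_of_u A h)))

/-- The companion matrix. -/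
def comp (t : ZMod 13) : SL2 := ⟨!![t, -1; 1, 0], by simp [Matrix.det_fin_two]⟩

theorem comp_trace (t : ZMod 13) : ((comp t : SL2) : Matrix (Fin 2) (Fin 2) (ZMod 13)).trace = t := by
  simp [comp, Matrix.trace_fin_two]

theorem toPSL_comp_pow_ne (t : ZMod 13) {n : ℕ} (h : u t (n + 1) ≠ 0) : (toPSL (comp t)) ^ (n + 1) ≠ 1 := by
  rw [← map_pow, Ne, toPSL_eq_one_iff]
  rintro ⟨c, hc⟩
  rw [pow_eq, comp_trace] at hc
  have h1 := congrFun (congrFun hc 1) 0
  simp [comp, Matrix.scalar_apply, Matrix.diagonal] at h1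
  exact h h1

theorem toPSL_comp_pow (t : ZMod 13) {n : ℕ} (h : u t (n + 1) = 0) : (toPSL (comp t)) ^ (n + 1) = 1 := by
  apply toPSL_pow_of_u
  rw [comp_trace]
  exact h

theorem u4 : u 4 6 = 0 ∧ u 4 2 ≠ 0 ∧ u 4 3 ≠ 0 ∧ u 3 7 = 0 ∧ u 3 1 ≠ 0 ∧ u 2 13 = 0 ∧ u 2 1 ≠ 0 := by decide

theorem exists_order6 : ∃ y : Matrix.ProjectiveSpecialLinearGroup (Fin 2) (ZMod 13), orderOf y = 6 := by
  refine ⟨toPSL (comp 4), ?_⟩
  apply orderOf_eq_of_pow_and_pow_div_prime (by norm_num) (toPSL_comp_pow 4 (n := 5) u4.1)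
  intro p hp hd
  have hp' : p ≤ 6 := Nat.le_of_dvd (by norm_num) hd
  interval_cases p
  · norm_num at hp
  · norm_num at hp
  · exact toPSL_comp_pow_ne 4 (n := 2) u4.2.2.1
  · exact toPSL_comp_pow_ne 4 (n := 1) u4.2.1
  · norm_num at hp
  · norm_num at hd
  · norm_num at hp

theorem exists_order7 : ∃ y : Matrix.ProjectiveSpecialLinearGroup (Fin 2) (ZMod 13), orderOf y = 7 := by
  refine ⟨toPSL (comp 3), ?_⟩
  have : Fact (Nat.Prime 7) := ⟨by norm_num⟩
  apply orderOf_eq_prime (p := 7) (toPSL_comp_pow 3 (n := 6) u4.2.2.2.1)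
  have := toPSL_comp_pow_ne 3 (n := 0) u4.2.2.2.2.1
  simpa using this

theorem exists_order13 : ∃ y : Matrix.ProjectiveSpecialLinearGroup (Fin 2) (ZMod 13), orderOf y = 13 := by
  refine ⟨toPSL (comp 2), ?_⟩
  apply orderOf_eq_prime (p := 13) (toPSL_comp_pow 2 (n := 12) u4.2.2.2.2.2.1)
  have := toPSL_comp_pow_ne 2 (n := 0) u4.2.2.2.2.2.2
  simpa using this

theorem pg_psl : PG (Matrix.ProjectiveSpecialLinearGroup (Fin 2) (ZMod 13)) := by
  refine ⟨fun r hr => ?_, fun r s hr hs hrs => ?_⟩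
  · constructor
    · intro h
      have : Fact r.Prime := ⟨hr⟩
      obtain ⟨y, hy⟩ := exists_prime_orderOf_dvd_card' r h
      rcases order_cases y with h1 | h1 | h1 <;> rw [hy] at h1
      · have h2 : r ∣ 2 * 3 := h1
        rcases (Nat.Prime.dvd_mul hr).1 h2 with h3 | h3
        · exact Or.inl ((Nat.prime_dvd_prime_iff_eq hr Nat.prime_two).1 h3)
        · exact Or.inr (Or.inl ((Nat.prime_dvd_prime_iff_eq hr Nat.prime_three).1 h3))
      · exact Or.inr (Or.inr (Or.inl ((Nat.prime_dvd_prime_iff_eq hr (by norm_num)).1 h1)))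
      · exact Or.inr (Or.inr (Or.inr ((Nat.prime_dvd_prime_iff_eq hr (by norm_num)).1 h1)))
    · obtain ⟨y6, h6⟩ := exists_order6
      obtain ⟨y7, h7⟩ := exists_order7
      obtain ⟨y13, h13⟩ := exists_order13
      have d6 := orderOf_dvd_natCard y6
      have d7 := orderOf_dvd_natCard y7
      have d13 := orderOf_dvd_natCard y13
      rw [h6] at d6
      rw [h7] at d7
      rw [h13] at d13
      rintro (rfl | rfl | rfl | rfl)
      · exact (by norm_num : (2 : ℕ) ∣ 6).trans d6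
      · exact (by norm_num : (3 : ℕ) ∣ 6).trans d6
      · exact d7
      · exact d13
  · constructor
    · rintro ⟨y, hy⟩
      have h2r := hr.two_le
      have h2s := hs.two_le
      rcases order_cases y with h1 | h1 | h1 <;> rw [hy] at h1
      · have hle : r * s ≤ 6 := Nat.le_of_dvd (by norm_num) h1
        have hr3 : r ≤ 3 := by nlinarith
        have hs3 : s ≤ 3 := by nlinarith
        interval_cases r <;> interval_cases s <;> simp_all
      · exfalso
        have h3 := (Nat.dvd_prime (by norm_num : Nat.Prime 7)).1 h1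
        rcases h3 with h3 | h3
        · nlinarith
        · exact Nat.not_prime_mul hr.one_lt.ne' hs.one_lt.ne' (by rw [h3]; norm_num)
      · exfalso
        have h3 := (Nat.dvd_prime (by norm_num : Nat.Prime 13)).1 h1
        rcases h3 with h3 | h3
        · nlinarith
        · exact Nat.not_prime_mul hr.one_lt.ne' hs.one_lt.ne' (by rw [h3]; norm_num)
    · rintro (⟨rfl, rfl⟩ | ⟨rfl, rfl⟩)
      · exact exists_order6
      · exact exists_order6

/-- The prime graph of `PSL₂(E)`, `|E| = 13`. -/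
theorem pg_field {E : Type*} [Field E] [Fintype E] (hE : Fintype.card E = 13) :
    PG (Matrix.ProjectiveSpecialLinearGroup (Fin 2) E) := by
  obtain ⟨f⟩ := Cfsg.Agent.Lib.Chev.FieldCongr.nonempty_ringEquiv_zmod (p := 13) hE
  exact pg_psl.congr (Cfsg.Agent.Lib.Classical.FieldTransfer.pslCongr f).symm

end Cfsg.Agent.Lib.G23.PSL213
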